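import Mathlib
import Cfsg.Agent.H576.Ext.Defs
import Cfsg.Agent.H989.OutOrth.Forms

/-!
# Criteria for `SylCyc S` (the Sylow subgroups of `Out S` are cyclic); S4832, helper55

* `SylCycGrp X` : every subgroup of prime power order of the group `X` is cyclic;
* `sylCyc_of_out` : `SylCycGrp (Out S) → SylCyc S`;
* `sylCycGrp_of_orders` : for every prime `ℓ`, `ℓ²` does not divide `|X|` or the `ℓ`-part of `|X|` divides the order of an
  element of `X`.
-/

set_option autoImplicit false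

open Cfsg

namespace Cfsg.Agent.H55.Ext

open Cfsg.Agent.H576.Ext

universe u v

/-- every subgroup of prime power order is cyclic -/
def SylCycGrp (X : Type*) [Group X] : Prop :=
  ∀ ℓ : ℕ, ℓ.Prime → ∀ Q : Subgroup X, IsPGroup ℓ Q → IsCyclic Q

theorem SylCycGrp.of_equiv {X : Type*} {Y : Type*} [Group X] [Group Y] (e : X ≃* Y) (h : SylCycGrp Y) :
    SylCycGrp X := by
  intro ℓ hℓ Q hQ
  have h1 : IsCyclic (Q.map e.toMonoidHom) := h ℓ hℓ _ (hQ.map _)
  exact isCyclic_of_surjective (Q.equivMapOfInjective e.toMonoidHom e.injective).symm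
    (Q.equivMapOfInjective e.toMonoidHom e.injective).symm.surjective

theorem SylCycGrp.of_injective {X : Type*} {Y : Type*} [Group X] [Group Y] (f : X →* Y)
    (hf : Function.Injective f) (h : SylCycGrp Y) : SylCycGrp X := by
  intro ℓ hℓ Q hQ
  have h1 : IsCyclic (Q.map f) := h ℓ hℓ _ (hQ.map _)
  exact isCyclic_of_surjective (Q.equivMapOfInjective f hf).symm
    (Q.equivMapOfInjective f hf).symm.surjective

theorem sylCycGrp_of_isCyclic {X : Type*} [Group X] [IsCyclic X] : SylCycGrp X :=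
  fun _ _ Q _ => Subgroup.isCyclic Q

/-- the criterion -/
theorem sylCycGrp_of_orders {X : Type*} [Group X] [Finite X]
    (h : ∀ ℓ : ℕ, ℓ.Prime → ¬ ℓ ^ 2 ∣ Nat.card X ∨
      ∃ x : X, (Nat.card X).factorization ℓ ≤ (orderOf x).factorization ℓ) : SylCycGrp X := by
  intro ℓ hℓ Q hQ
  have hf : Fact ℓ.Prime := ⟨hℓ⟩
  rcases h ℓ hℓ with h1 | ⟨x, hx⟩
  · obtain ⟨k, hk⟩ := (IsPGroup.iff_card).1 hQ
    have h2 : k < 2 := by
      by_contra hcon
      apply h1
      exact ((pow_dvd_pow ℓ (not_lt.1 hcon)).trans (by rw [← hk])).trans (Subgroup.card_subgroup_dvd_card Q)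
    interval_cases k
    · rw [pow_zero] at hk
      have : Subsingleton Q := (Nat.card_eq_one_iff_unique.1 hk).1
      exact isCyclic_of_subsingleton
    · rw [pow_one] at hk
      exact isCyclic_of_prime_card hk
  · -- the `ℓ`-part of `x`
    set n := Nat.card X with hn
    have hn0 : n ≠ 0 := Nat.card_pos.ne'
    have hm0 : orderOf x ≠ 0 := (orderOf_pos x).ne'
    have h2 : ℓ ^ (n.factorization ℓ) ∣ orderOf x :=
      (pow_dvd_pow ℓ hx).trans (Nat.ordProj_dvd _ _)
    obtain ⟨m, hm⟩ := h2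
    have hm1 : m ≠ 0 := by
      rintro rfl
      rw [mul_zero] at hm
      exact hm0 hm
    have h3 : orderOf (x ^ m) = ℓ ^ (n.factorization ℓ) := by
      rw [orderOf_pow' x hm1, hm]
      rw [Nat.gcd_eq_right (Dvd.intro_left _ rfl), Nat.mul_div_cancel _ (Nat.pos_of_ne_zero hm1)]
    have h4 : Nat.card (Subgroup.zpowers (x ^ m)) = ℓ ^ (n.factorization ℓ) := by
      rw [Nat.card_zpowers, h3]
    -- a Sylow subgroup
    let P : Sylow ℓ X := Sylow.ofCard (Subgroup.zpowers (x ^ m)) (by rw [h4])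
    obtain ⟨R, hR⟩ := hQ.exists_le_sylow
    obtain ⟨g, hg⟩ := MulAction.exists_smul_eq X P R
    have hP : IsCyclic (P : Subgroup X) := by
      show IsCyclic (Subgroup.zpowers (x ^ m))
      infer_instance
    have hR' : IsCyclic (R : Subgroup X) := by
      have e : (P : Subgroup X) ≃* (R : Subgroup X) := Sylow.equiv P R
      exact isCyclic_of_surjective e e.surjective
    exact isCyclic_of_injective (Subgroup.inclusion hR) (Subgroup.inclusion_injective hR)

/-- from `Out S` to the definition -/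
theorem sylCyc_of_out {S : Type u} [Group S] (h : SylCycGrp (Cfsg.Out S)) : SylCyc S := by
  intro ℓ hℓ P _ hP
  have h1 : IsCyclic (P.map (QuotientGroup.mk' (Cfsg.Inn S))) := h ℓ hℓ _ (hP.map _)
  obtain ⟨⟨_, ⟨γ, hγ, rfl⟩⟩, hgen⟩ := h1
  refine ⟨γ, hγ, fun α hα => ?_⟩
  obtain ⟨k, hk⟩ := Subgroup.mem_zpowers_iff.1 (hgen ⟨QuotientGroup.mk' (Cfsg.Inn S) α, α, hα, rfl⟩)
  have h2 : (QuotientGroup.mk' (Cfsg.Inn S)) γ ^ k = QuotientGroup.mk' (Cfsg.Inn S) α := congrArg Subtype.val hk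
  rw [← map_zpow] at h2
  have h3 : (QuotientGroup.mk' (Cfsg.Inn S)) (α * (γ ^ k)⁻¹) = 1 := by
    rw [map_mul, map_inv, h2, mul_inv_cancel]
  rw [QuotientGroup.mk'_apply, QuotientGroup.eq_one_iff] at h3
  obtain ⟨s, hs⟩ := h3
  refine ⟨k, s, ?_⟩
  rw [hs, inv_mul_cancel_right]

theorem sylCyc_of_equiv {S : Type u} {T : Type v} [Group S] [Group T] (e : S ≃* T)
    (h : SylCycGrp (Cfsg.Out T)) : SylCyc S :=
  sylCyc_of_out (h.of_equiv (Cfsg.Agent.H989.OutOrth.Forms.outCongr e))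

end Cfsg.Agent.H55.Ext
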